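import Mathlib
import Cfsg.Prelude.Def_QuasithinSetup
import Cfsg.Agent.Lib.Helper31.EvenChar
import Cfsg.Agent.S0026
import Cfsg.Agent.S0027

/-!
Tools for the collections `𝒳`, `𝒳_f`, `ℒ(G,T)` of the quasithin setup (helper31):
perfect groups are generated by elements of odd order, `O_p` of subnormal subgroups,
`O_p(H)` normalizes subnormal subgroups generated by `p'`-elements, and the upward
closure of faithfulness.
-/

set_option autoImplicit false

namespace Cfsg.Agent.Lib.Helper31

open Cfsg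
open scoped commutatorElement

section abstractGroup

variable {X : Type*} [Group X]

/-- A finite perfect group is generated by its elements of odd order. -/
theorem closure_odd_eq_top [Finite X] (hX : commutator X = ⊤) :
    Subgroup.closure {x : X | Odd (orderOf x)} = ⊤ := by
  classical
  set S : Set X := {x : X | Odd (orderOf x)} with hS
  set N : Subgroup X := Subgroup.closure S with hN
  have hNn : N.Normal := by
    constructor
    intro n hn g
    have hle : N ≤ N.comap (MulAut.conj g).toMonoidHom := by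
      rw [hN, Subgroup.closure_le]
      intro s hs
      show g * s * g⁻¹ ∈ Subgroup.closure S
      apply Subgroup.subset_closure
      show Odd (orderOf (g * s * g⁻¹))
      have h1 : orderOf (g * s * g⁻¹) = orderOf s := (MulAut.conj g).orderOf_eq s
      rw [h1]
      exact hs
    exact hle hn
  have hQ2 : IsPGroup 2 (X ⧸ N) := by
    intro q
    induction q using QuotientGroup.induction_on with
    | H x =>
      obtain ⟨k, m, hm, hkm⟩ := Nat.exists_eq_two_pow_mul_odd (orderOf_pos x).ne'
      refine ⟨k, ?_⟩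
      have h1 : (x ^ 2 ^ k) ^ m = 1 := by rw [← pow_mul, ← hkm, pow_orderOf_eq_one]
      have h2 : Odd (orderOf (x ^ 2 ^ k)) := Odd.of_dvd_nat hm (orderOf_dvd_of_pow_eq_one h1)
      have h3 : x ^ 2 ^ k ∈ N := Subgroup.subset_closure h2
      rw [← QuotientGroup.mk_pow]
      exact (QuotientGroup.eq_one_iff _).mpr h3
  have hsolv : Group.IsSolvable (X ⧸ N) := by
    have := hQ2.isNilpotent
    exact IsNilpotent.to_isSolvable
  have hperf : commutator (X ⧸ N) = ⊤ := by
    have h1 : (commutator X).map (QuotientGroup.mk' N) = commutator (X ⧸ N) := by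
      rw [commutator_def, commutator_def, Subgroup.map_commutator,
        Subgroup.map_top_of_surjective _ (QuotientGroup.mk'_surjective N)]
    rw [← h1, hX, Subgroup.map_top_of_surjective _ (QuotientGroup.mk'_surjective N)]
  by_contra hne
  obtain ⟨x, hx⟩ : ∃ x : X, x ∉ N := by
    by_contra hall
    exact hne (eq_top_iff.mpr fun x _ => by_contra fun hx => hall ⟨x, hx⟩)
  have hnt : Nontrivial (X ⧸ N) :=
    ⟨⟨(QuotientGroup.mk x : X ⧸ N), 1, fun h => hx ((QuotientGroup.eq_one_iff _).mp h)⟩⟩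
  exact (Group.IsSolvable.commutator_lt_top_of_nontrivial (X ⧸ N)).ne hperf

/-- `O_p` of a subnormal subgroup lies in `O_p` of the group. -/
theorem pcOf_le_pCore_of_subnormal {p : ℕ} [Fact p.Prime] {Y : Subgroup X} (hY : Y.IsSubnormal) :
    pcOf p Y ≤ pCore p X := by
  induction hY with
  | top =>
    have hn : (pcOf p (⊤ : Subgroup X)).Normal := by
      rw [← Subgroup.normalizer_eq_top_iff]
      exact top_le_iff.mp (le_normalizer_pcOf p ⊤)
    exact Helper49.le_pCore hn (pcOf_isPGroup p _)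
  | step H K h_le hSubn hN ih =>
    refine le_trans (le_pcOf (le_trans (pcOf_le p H) h_le) ?_ (pcOf_isPGroup p H)) ih
    exact le_trans ((Subgroup.normal_subgroupOf_iff_le_normalizer h_le).mp hN)
      (normalizer_le_normalizer_pcOf p H)

/-- A normal `p`-subgroup of a subnormal subgroup lies in `O_p` of the group. -/
theorem le_pCore_of_subnormal {p : ℕ} [Fact p.Prime] {Y A : Subgroup X} (hY : Y.IsSubnormal)
    (hAY : A ≤ Y) (hn : Y ≤ Subgroup.normalizer (A : Set X)) (hA : IsPGroup p A) :
    A ≤ pCore p X :=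
  le_trans (le_pcOf hAY hn hA) (pcOf_le_pCore_of_subnormal hY)

/-- A normal `p`-subgroup `R` and a `p'`-element `x` of a subnormal subgroup `L`:
`[R, ⟨x⟩] ≤ L`. -/
theorem commutator_zpowers_le_of_subnormal [Finite X] {p : ℕ} [Fact p.Prime] (R : Subgroup X)
    [hRn : R.Normal] (hR : IsPGroup p R) {L : Subgroup X} (hL : L.IsSubnormal) {x : X}
    (hx : x ∈ L) (hxp : (orderOf x).Coprime p) : ⁅R, Subgroup.zpowers x⁆ ≤ L := by
  set A : Subgroup X := Subgroup.zpowers x with hA
  have hAR : A ≤ Subgroup.normalizer (R : Set X) := by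
    rw [Subgroup.normalizer_eq_top]; exact le_top
  have hcop : (Nat.card A).Coprime (Nat.card R) := by
    obtain ⟨n, hn⟩ := IsPGroup.iff_card.mp hR
    rw [hn, Nat.card_zpowers]
    exact Nat.Coprime.pow_right n hxp
  have hsolvR : Group.IsSolvable ↥R := by
    have := hR.isNilpotent
    exact IsNilpotent.to_isSolvable
  have hst := Cfsg.Agent.S0027.result A R hAR hcop (Or.inr hsolvR)
  have key : ∀ K : Subgroup X, K.IsSubnormal → A ≤ K → ⁅R, A⁆ ≤ K := by
    intro K hK
    induction hK with
    | top => intro _; exact le_top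
    | step H K h_le hSubn hN ih =>
      intro hAH
      have h1 : ⁅R, A⁆ ≤ K := ih (le_trans hAH h_le)
      rw [← hst]
      have h2 : ⁅⁅R, A⁆, A⁆ ≤ ⁅K, H⁆ := Subgroup.commutator_mono h1 hAH
      have h3 : ⁅K, H⁆ ≤ H := by
        rw [Subgroup.commutator_le]
        intro k hk h hh
        have hkN : k ∈ Subgroup.normalizer (H : Set X) :=
          (Subgroup.normal_subgroupOf_iff_le_normalizer h_le).mp hN hk
        exact H.mul_mem (conj_mem_of_mem_normalizer hkN hh) (H.inv_mem hh)
      exact le_trans h2 h3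
  exact key L hL (Subgroup.zpowers_le.mpr hx)

end abstractGroup

section ambient

variable {G : Type*} [Group G]

/-- A finite perfect subgroup is generated by its elements of odd order. -/
theorem oddGenerated_eq_of_perfect [Finite G] (K : Subgroup G) (hK : ⁅K, K⁆ = K) :
    oddGenerated K = K := by
  apply le_antisymm
  · unfold oddGenerated
    rw [Subgroup.closure_le]
    intro x hx
    exact hx.1
  · have hmap : (⁅(⊤ : Subgroup K), (⊤ : Subgroup K)⁆ : Subgroup K).map K.subtype = K := by
      rw [Subgroup.map_commutator, ← MonoidHom.range_eq_map, Subgroup.range_subtype, hK]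
    have htop : commutator ↥K = ⊤ := by
      rw [commutator_def]
      apply Subgroup.map_injective K.subtype_injective
      rw [hmap, ← MonoidHom.range_eq_map, Subgroup.range_subtype]
    have h1 := closure_odd_eq_top htop
    have h2 : (Subgroup.closure {x : ↥K | Odd (orderOf x)}).map K.subtype ≤ oddGenerated K := by
      rw [MonoidHom.map_closure]
      unfold oddGenerated
      apply Subgroup.closure_mono
      rintro _ ⟨y, hy, rfl⟩
      refine ⟨y.2, ?_⟩
      have hy' : Odd (orderOf y) := hy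
      rw [← Subgroup.orderOf_coe] at hy'
      exact hy'
    rw [h1, ← MonoidHom.range_eq_map, Subgroup.range_subtype] at h2
    exact h2

/-- Characteristic `p` passes to subgroups containing `O_p`. -/
theorem charp_of_pcOf_le [Finite G] {p : ℕ} [Fact p.Prime] {M H : Subgroup G} (hHM : H ≤ M)
    (hM : Subgroup.centralizer (pCore p ↥M : Set ↥M) ≤ pCore p ↥M) (hle : pcOf p M ≤ H) :
    Subgroup.centralizer (pCore p ↥H : Set ↥H) ≤ pCore p ↥H := by
  have h1 : Subgroup.centralizer (pCore p ↥(H.subgroupOf M) : Set ↥(H.subgroupOf M))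
      ≤ pCore p ↥(H.subgroupOf M) := by
    apply Helper49.charp_of_normalized hM
    intro r hr
    apply Subgroup.le_normalizer
    rw [Subgroup.mem_subgroupOf]
    exact hle ⟨r, hr, rfl⟩
  exact Helper49.charp_of_equiv (Subgroup.subgroupOfEquivOfLe hHM) h1

/-- Characteristic `p` passes to subnormal subgroups (relative form). -/
theorem charp_of_subnormal_subgroupOf [Finite G] {p : ℕ} [Fact p.Prime] {K H : Subgroup G}
    (hKH : K ≤ H) (hsub : (K.subgroupOf H).IsSubnormal)
    (hH : Subgroup.centralizer (pCore p ↥H : Set ↥H) ≤ pCore p ↥H) :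
    Subgroup.centralizer (pCore p ↥K : Set ↥K) ≤ pCore p ↥K :=
  Helper49.charp_of_equiv (Subgroup.subgroupOfEquivOfLe hKH)
    (Helper49.charp_of_subnormal hH (K.subgroupOf H) hsub)

/-- Characteristic `p`, elementwise in the ambient group. -/
theorem mem_pcOf_of_charp {p : ℕ} {K : Subgroup G}
    (hK : Subgroup.centralizer (pCore p ↥K : Set ↥K) ≤ pCore p ↥K) {u : G} (hu : u ∈ K)
    (hc : ∀ q ∈ pcOf p K, q * u = u * q) : u ∈ pcOf p K := by
  have h1 : (⟨u, hu⟩ : ↥K) ∈ Subgroup.centralizer (pCore p ↥K : Set ↥K) := by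
    rw [Subgroup.mem_centralizer_iff]
    intro q hq
    apply Subtype.ext
    exact hc (q : G) ⟨q, hq, rfl⟩
  exact ⟨⟨u, hu⟩, hK h1, rfl⟩

/-- `O_p(K) ≤ O_p(H)` for `K` subnormal in `H`. -/
theorem pcOf_le_pcOf_of_subnormal {p : ℕ} [Fact p.Prime] {K H : Subgroup G} (hKH : K ≤ H)
    (hsub : (K.subgroupOf H).IsSubnormal) : pcOf p K ≤ pcOf p H := by
  have hA : (pcOf p K).subgroupOf H ≤ pCore p ↥H := by
    apply le_pCore_of_subnormal hsub
    · intro x hx
      rw [Subgroup.mem_subgroupOf] at hx ⊢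
      exact pcOf_le p K hx
    · intro y hy
      rw [Subgroup.mem_subgroupOf] at hy
      have hyN := le_normalizer_pcOf p K hy
      apply mem_normalizer_of_conj_mem
      · intro x hx
        rw [Subgroup.mem_subgroupOf] at hx ⊢
        exact conj_mem_of_mem_normalizer hyN hx
      · intro x hx
        rw [Subgroup.mem_subgroupOf] at hx ⊢
        exact conj_mem_of_mem_normalizer' hyN hx
    · exact (pcOf_isPGroup p K).comap_of_injective H.subtype H.subtype_injective
  intro x hx
  have hxH : x ∈ H := hKH (pcOf_le p K hx)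
  exact ⟨⟨x, hxH⟩, hA (Subgroup.mem_subgroupOf.mpr hx), rfl⟩

/-- `[O_p(H), x] ⊆ L` for a `p'`-element `x` of a subnormal subgroup `L` of `H`. -/
theorem comm_mem_of_subnormal [Finite G] {p : ℕ} [Fact p.Prime] {L H : Subgroup G} (hLH : L ≤ H)
    (hsub : (L.subgroupOf H).IsSubnormal) {x : G} (hx : x ∈ L) (hxp : (orderOf x).Coprime p)
    {r : G} (hr : r ∈ pcOf p H) : r * x * r⁻¹ * x⁻¹ ∈ L := by
  obtain ⟨r', hr', rfl⟩ := hr
  have hn : (pCore p ↥H).Normal := Cfsg.pCore_normal p ↥H
  have hx' : (⟨x, hLH hx⟩ : ↥H) ∈ L.subgroupOf H := Subgroup.mem_subgroupOf.mpr hx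
  have hxp' : (orderOf (⟨x, hLH hx⟩ : ↥H)).Coprime p := by
    rw [← Subgroup.orderOf_coe]
    exact hxp
  have h1 := commutator_zpowers_le_of_subnormal (pCore p ↥H) (Helper49.pCore_isPGroup p ↥H)
    hsub hx' hxp'
  have h2 : ⁅r', (⟨x, hLH hx⟩ : ↥H)⁆ ∈ L.subgroupOf H :=
    h1 (Subgroup.commutator_mem_commutator hr' (Subgroup.mem_zpowers _))
  have h3 := Subgroup.mem_subgroupOf.mp h2
  rw [commutatorElement_def] at h3
  simpa using h3

/-- `O_2(H)` normalizes a subnormal subgroup of `H` generated by elements of odd order. -/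
theorem pcOf_le_normalizer_of_oddGenerated [Finite G] {L H : Subgroup G} (hLH : L ≤ H)
    (hsub : (L.subgroupOf H).IsSubnormal) (hodd : oddGenerated L = L) :
    pcOf 2 H ≤ Subgroup.normalizer (L : Set G) := by
  have key : ∀ r ∈ pcOf 2 H, ∀ l ∈ L, r * l * r⁻¹ ∈ L := by
    intro r hr l hl
    have hle : oddGenerated L ≤ L.comap (MulAut.conj r).toMonoidHom := by
      unfold oddGenerated
      rw [Subgroup.closure_le]
      rintro s ⟨hs, hso⟩
      show r * s * r⁻¹ ∈ L
      have h1 := comm_mem_of_subnormal (p := 2) hLH hsub hs (Nat.coprime_two_right.mpr hso) hr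
      have h2 : r * s * r⁻¹ = (r * s * r⁻¹ * s⁻¹) * s := by group
      rw [h2]
      exact L.mul_mem h1 hs
    rw [hodd] at hle
    exact hle hl
  intro r hr
  apply mem_normalizer_of_conj_mem (key r hr)
  intro l hl
  simpa using key r⁻¹ (Subgroup.inv_mem _ hr) l hl

/-- The normalizer of `A` normalizes `Ω₁(A)`. -/
theorem normalizer_le_normalizer_omegaOne (p : ℕ) (A : Subgroup G) :
    Subgroup.normalizer (A : Set G) ≤ Subgroup.normalizer (omegaOne p A : Set G) := by
  have key : ∀ g ∈ Subgroup.normalizer (A : Set G), ∀ w ∈ omegaOne p A,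
      g * w * g⁻¹ ∈ omegaOne p A := by
    intro g hg w hw
    have hle : omegaOne p A ≤ (omegaOne p A).comap (MulAut.conj g).toMonoidHom := by
      unfold omegaOne
      rw [Subgroup.closure_le]
      rintro s ⟨hs, hsp⟩
      show g * s * g⁻¹ ∈ Subgroup.closure {x : G | x ∈ A ∧ x ^ p = 1}
      apply Subgroup.subset_closure
      refine ⟨conj_mem_of_mem_normalizer hg hs, ?_⟩
      rw [conj_pow, hsp]
      group
    exact hle hw
  intro g hg
  apply mem_normalizer_of_conj_mem (key g hg)
  intro w hw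
  simpa using key g⁻¹ (Subgroup.inv_mem _ hg) w hw

/-- Elements of `Ω₁(A)` for commutative `A` lie in `A` and have order dividing `p`. -/
theorem mem_and_pow_of_mem_omegaOne (p : ℕ) {A : Subgroup G}
    (hA : ∀ a ∈ A, ∀ b ∈ A, a * b = b * a) {u : G} (hu : u ∈ omegaOne p A) :
    u ∈ A ∧ u ^ p = 1 := by
  unfold omegaOne at hu
  induction hu using Subgroup.closure_induction with
  | mem x hx => exact hx
  | one => exact ⟨A.one_mem, one_pow p⟩
  | mul x y _ _ hx hy =>
    refine ⟨A.mul_mem hx.1 hy.1, ?_⟩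
    have hc : Commute x y := hA x hx.1 y hy.1
    rw [hc.mul_pow, hx.2, hy.2, one_mul]
  | inv x _ hx =>
    exact ⟨A.inv_mem hx.1, by rw [inv_pow, hx.2, inv_one]⟩

/-- The centre `Q ⊓ C(Q)` of a subgroup is commutative. -/
theorem inf_centralizer_comm (Q : Subgroup G) :
    ∀ a ∈ Q ⊓ Subgroup.centralizer (Q : Set G), ∀ b ∈ Q ⊓ Subgroup.centralizer (Q : Set G),
      a * b = b * a := by
  rintro a ⟨haQ, -⟩ b ⟨-, hbC⟩
  exact Subgroup.mem_centralizer_iff.mp hbC a haQ

/-- Members of `ℒ(G,T)` are perfect. -/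
theorem perfect_of_mem_calL {S K : Subgroup G} (hK : K ∈ calL S) : ⁅K, K⁆ = K := by
  have hKH : K ≤ K ⊔ S := le_sup_left
  have h1 := congrArg (Subgroup.map (K ⊔ S).subtype) hK.1.2.1
  rw [Subgroup.map_commutator, Subgroup.map_subgroupOf_eq_of_le hKH] at h1
  exact h1

/-- In a group of even characteristic, `⟨K, T⟩` and `K` have characteristic 2 for
`K ∈ ℒ(G,T)`. -/
theorem charTwo_of_mem_calL [Finite G] (hE : IsOfEvenCharacteristic G) (T : Sylow 2 G)
    {K : Subgroup G} (hK : K ∈ calL (T : Subgroup G)) :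
    Subgroup.centralizer (pCore 2 ↥K : Set ↥K) ≤ pCore 2 ↥K ∧
    Subgroup.centralizer (pCore 2 ↥(K ⊔ (T : Subgroup G)) : Set ↥(K ⊔ (T : Subgroup G))) ≤
      pCore 2 ↥(K ⊔ (T : Subgroup G)) := by
  obtain ⟨hC, -, hO⟩ := hK
  set H : Subgroup G := K ⊔ (T : Subgroup G) with hH
  have hKH : K ≤ H := le_sup_left
  have hTH : (T : Subgroup G) ≤ H := le_sup_right
  set Q : Subgroup G := pcOf 2 H with hQ
  have hQne : Q ≠ ⊥ := by
    intro h
    apply hO
    exact (Subgroup.map_eq_bot_iff_of_injective _ H.subtype_injective).mp h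
  have hQp : IsPGroup 2 Q := pcOf_isPGroup 2 H
  set N : Subgroup G := Subgroup.normalizer (Q : Set G) with hN
  have hHN : H ≤ N := le_normalizer_pcOf 2 H
  have hTN : (T : Subgroup G) ≤ N := le_trans hTH hHN
  have hNchar : IsOfCharacteristicTwo ↥N := hE N ⟨Q, hQp, hQne, rfl⟩ ⟨T, hTN⟩
  have hle : pcOf 2 N ≤ H := by
    rintro _ ⟨r, hr, rfl⟩
    have h1 : pCore 2 ↥N ≤ (T.subtype hTN : Subgroup ↥N) :=
      (Helper49.pCore_isPGroup 2 ↥N).le_sylow_of_normal _
    have h2 := h1 hr
    rw [Sylow.coe_subtype, Subgroup.mem_subgroupOf] at h2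
    exact hTH h2
  have hHchar := charp_of_pcOf_le hHN hNchar hle
  exact ⟨charp_of_subnormal_subgroupOf hKH hC.2.2.1 hHchar, hHchar⟩

/-- **Upward closure of faithfulness.** If `L ≤ K` are members of `ℒ(G,T)`, `L = O²(L)` acts
nontrivially on `Ω₁(Z(O₂(L)))` and `K` has characteristic 2, then `K` acts nontrivially on
`Ω₁(Z(O₂(K)))`. -/
theorem moduleV_ne_bot_of_le [Finite G] (T : Sylow 2 G) {L K : Subgroup G}
    (hL : L ∈ calL (T : Subgroup G)) (hLodd : oddGenerated L = L) (hLV : moduleV L ≠ ⊥)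
    (hK : K ∈ calL (T : Subgroup G)) (hLK : L ≤ K)
    (hKchar : Subgroup.centralizer (pCore 2 ↥K : Set ↥K) ≤ pCore 2 ↥K) :
    moduleV K ≠ ⊥ := by
  classical
  intro hKV
  apply hLV
  obtain ⟨hLC, -, -⟩ := hL
  obtain ⟨hKC, hKS, -⟩ := hK
  set HL : Subgroup G := L ⊔ (T : Subgroup G) with hHL
  set HK : Subgroup G := K ⊔ (T : Subgroup G) with hHK
  have hLHL : L ≤ HL := le_sup_left
  have hTHL : (T : Subgroup G) ≤ HL := le_sup_right
  have hKHK : K ≤ HK := le_sup_left
  have hTHK : (T : Subgroup G) ≤ HK := le_sup_right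
  have hHLHK : HL ≤ HK := sup_le (le_trans hLK hKHK) hTHK
  set R : Subgroup G := pcOf 2 HL with hR
  set QL : Subgroup G := pcOf 2 L with hQL
  set QK : Subgroup G := pcOf 2 K with hQK
  set ZL : Subgroup G := omegaOne 2 (QL ⊓ Subgroup.centralizer (QL : Set G)) with hZL
  set ZK : Subgroup G := omegaOne 2 (QK ⊓ Subgroup.centralizer (QK : Set G)) with hZK
  have hKV' : ⁅ZK, K⁆ = ⊥ := hKV
  show ⁅ZL, L⁆ = ⊥
  have hRp : IsPGroup 2 R := pcOf_isPGroup 2 HL
  -- `R` normalizes `L`
  have hRNL : R ≤ Subgroup.normalizer (L : Set G) :=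
    pcOf_le_normalizer_of_oddGenerated hLHL hLC.2.2.1 hLodd
  -- `N(L) ≤ N(Z_L)`
  have hNLZ : Subgroup.normalizer (L : Set G) ≤ Subgroup.normalizer (ZL : Set G) := by
    intro g hg
    have h1 : g ∈ Subgroup.normalizer (QL : Set G) := normalizer_le_normalizer_pcOf 2 L hg
    have h2 : g ∈ Subgroup.normalizer
        ((QL ⊓ Subgroup.centralizer (QL : Set G) : Subgroup G) : Set G) :=
      mem_normalizer_inf h1 (normalizer_le_normalizer_centralizer QL h1)
    exact normalizer_le_normalizer_omegaOne 2 _ h2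
  -- `O_2(K) ≤ R`
  have hQKR : QK ≤ R := by
    have h1 : QK ≤ pcOf 2 HK := pcOf_le_pcOf_of_subnormal hKHK hKC.2.2.1
    have h2 : pcOf 2 HK ≤ (T : Subgroup G) := by
      obtain ⟨P, hP⟩ := hKS
      rintro _ ⟨r, hr, rfl⟩
      have h3 : pCore 2 ↥HK ≤ (P : Subgroup ↥HK) :=
        (Helper49.pCore_isPGroup 2 ↥HK).le_sylow_of_normal P
      have h4 := h3 hr
      rw [hP, Subgroup.mem_subgroupOf] at h4
      exact h4
    have h3 : pcOf 2 HK ≤ R :=
      le_pcOf (le_trans h2 hTHL) (le_trans hHLHK (le_normalizer_pcOf 2 HK)) (pcOf_isPGroup 2 HK)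
    exact le_trans h1 h3
  -- `R ∩ L ≤ O_2(L)`
  have hRL : R ⊓ L ≤ QL :=
    le_pcOf inf_le_right
      (fun l hl => mem_normalizer_inf (le_normalizer_pcOf 2 HL (hLHL hl)) (Subgroup.le_normalizer hl))
      (hRp.to_le inf_le_left)
  -- elements of `Z_L`
  have hZLmem : ∀ u ∈ ZL, u ∈ QL ⊓ Subgroup.centralizer (QL : Set G) ∧ u ^ 2 = 1 :=
    fun u hu => mem_and_pow_of_mem_omegaOne 2 (inf_centralizer_comm QL) hu
  have hZLp : IsPGroup 2 ZL := (pcOf_isPGroup 2 L).to_le (fun u hu => (hZLmem u hu).1.1)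
  rw [Subgroup.commutator_eq_bot_iff_le_centralizer, Subgroup.le_centralizer_iff]
  have hgoal : oddGenerated L ≤ Subgroup.centralizer (ZL : Set G) := by
    unfold oddGenerated
    rw [Subgroup.closure_le]
    rintro x ⟨hxL, hxodd⟩
    have hxcop : (orderOf x).Coprime 2 := Nat.coprime_two_right.mpr hxodd
    set A : Subgroup G := Subgroup.zpowers x with hA
    have hAL : A ≤ L := Subgroup.zpowers_le.mpr hxL
    have hAR : A ≤ Subgroup.normalizer (R : Set G) :=
      le_trans hAL (le_trans hLHL (le_normalizer_pcOf 2 HL))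
    have hcop : (Nat.card A).Coprime (Nat.card R) := by
      obtain ⟨n, hn⟩ := IsPGroup.iff_card.mp hRp
      rw [hn, Nat.card_zpowers]
      exact Nat.Coprime.pow_right n hxcop
    have hsolvR : Group.IsSolvable ↥R := by
      have := hRp.isNilpotent
      exact IsNilpotent.to_isSolvable
    have hfac := Cfsg.Agent.S0026.result A R hAR hcop (Or.inr hsolvR)
    set B : Subgroup G := R ⊓ Subgroup.centralizer (A : Set G) with hB
    have hRA : ⁅R, A⁆ ≤ R ⊓ L := by
      rw [Subgroup.commutator_le]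
      intro r hr a ha
      rw [commutatorElement_def]
      refine ⟨?_, ?_⟩
      · have h1 : a * r⁻¹ * a⁻¹ ∈ R := conj_mem_of_mem_normalizer (hAR ha) (R.inv_mem hr)
        have h2 : r * a * r⁻¹ * a⁻¹ = r * (a * r⁻¹ * a⁻¹) := by group
        rw [h2]
        exact R.mul_mem hr h1
      · have haodd : (orderOf a).Coprime 2 :=
          Nat.Coprime.coprime_dvd_left (orderOf_dvd_of_mem_zpowers ha) hxcop
        exact comm_mem_of_subnormal hLHL hLC.2.2.1 (hAL ha) haodd hr
    show x ∈ Subgroup.centralizer (ZL : Set G)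
    rw [Subgroup.mem_centralizer_iff]
    intro u hu
    have hxN : x ∈ Subgroup.normalizer (ZL : Set G) := hNLZ (Subgroup.le_normalizer hxL)
    have hmain : Commute x u := by
      apply Helper49.thompson_AxB ZL B hZLp (hRp.to_le inf_le_left)
        (le_trans inf_le_left (le_trans hRNL hNLZ)) x hxN hxcop ?_ ?_ u hu
      · intro b hb
        exact Subgroup.mem_centralizer_iff.mp hb.2 x (Subgroup.mem_zpowers x)
      · intro w hw hwB
        obtain ⟨⟨hwQ, hwC⟩, hw2⟩ := hZLmem w hw
        -- `w` commutes with all of `R`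
        have hRw : ∀ c ∈ R, w * c = c * w := by
          intro c hc
          rw [← hfac] at hc
          have hle : ⁅R, A⁆ ⊔ B ≤ Subgroup.centralizer ({w} : Set G) := by
            apply sup_le
            · intro c hc
              rw [Subgroup.mem_centralizer_iff]
              intro h hh
              rw [Set.mem_singleton_iff] at hh
              subst hh
              exact (Subgroup.mem_centralizer_iff.mp hwC c (hRL (hRA hc))).symm
            · intro b hb
              rw [Subgroup.mem_centralizer_iff]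
              intro h hh
              rw [Set.mem_singleton_iff] at hh
              subst hh
              exact (hwB b hb).eq
          exact Subgroup.mem_centralizer_iff.mp (hle hc) w (Set.mem_singleton w)
        have hwK : w ∈ K := hLK (pcOf_le 2 L hwQ)
        have hwQK : w ∈ QK :=
          mem_pcOf_of_charp hKchar hwK (fun q hq => (hRw q (hQKR hq)).symm)
        have hwCK : w ∈ Subgroup.centralizer (QK : Set G) := by
          rw [Subgroup.mem_centralizer_iff]
          intro q hq
          exact (hRw q (hQKR hq)).symm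
        have hwZK : w ∈ ZK := Subgroup.subset_closure ⟨⟨hwQK, hwCK⟩, hw2⟩
        have h5 := (Subgroup.commutator_eq_bot_iff_le_centralizer.mp hKV') hwZK
        exact Subgroup.mem_centralizer_iff.mp h5 x (hLK hxL)
    exact hmain.eq.symm
  rw [hLodd] at hgoal
  exact hgoal

end ambient

end Cfsg.Agent.Lib.Helper31
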